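/-
Helper library (helper52): piece [Q4] of helper49's farm for Bender-Glauberman 15.7 (case K ≠ 1):
`P = W` when `W` is extraspecial of order `p³`.
-/
import Mathlib
import Cfsg.Agent.Lib.Helper49.P1.Base
import Cfsg.Agent.Lib.Helper48.FF1

set_option autoImplicit false
set_option linter.unusedSectionVars false
set_option linter.unusedVariables false

namespace Cfsg.Agent.Lib.Helper52.P1

open Subgroup Cfsg Cfsg.Agent.Lib.Helper49.P1
open scoped commutatorElement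

variable {G : Type*} [Group G]

/-- `y ↦ w y w⁻¹ y⁻¹` as a homomorphism on `P`, when all these commutators are central in `P`. -/
def cHom {P Z₀ : Subgroup G} (hZ₀c : Z₀ ≤ centralizer (P : Set G)) (w : G)
    (hw : ∀ y ∈ P, w * y * w⁻¹ * y⁻¹ ∈ Z₀) : P →* G where
  toFun y := w * y * w⁻¹ * (y : G)⁻¹
  map_one' := by simp
  map_mul' y y' := by
    have h := mem_centralizer_iff.1 (hZ₀c (hw y' y'.2)) y y.2
    have h' : (w * y' * w⁻¹ * (y' : G)⁻¹) * (y : G)⁻¹ = (y : G)⁻¹ * (w * y' * w⁻¹ * (y' : G)⁻¹) := by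
      rw [eq_inv_mul_iff_mul_eq, ← mul_assoc, h, mul_assoc, mul_inv_cancel, mul_one]
    calc w * ((y * y' : P) : G) * w⁻¹ * ((y * y' : P) : G)⁻¹
        = w * y * w⁻¹ * ((w * y' * w⁻¹ * (y' : G)⁻¹) * (y : G)⁻¹) := by
          simp only [Subgroup.coe_mul]; group
      _ = w * y * w⁻¹ * ((y : G)⁻¹ * (w * y' * w⁻¹ * (y' : G)⁻¹)) := by rw [h']
      _ = _ := by group

theorem cHom_apply {P Z₀ : Subgroup G} (hZ₀c : Z₀ ≤ centralizer (P : Set G)) (w : G)
    (hw : ∀ y ∈ P, w * y * w⁻¹ * y⁻¹ ∈ Z₀) (y : P) :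
    cHom hZ₀c w hw y = w * y * w⁻¹ * (y : G)⁻¹ := rfl

variable [Finite G] {p : ℕ} [Fact p.Prime]

/-- a noncommuting pair generates a group of order `p³`. -/
theorem closure_pair_eq {W : Subgroup G} (hW3 : Nat.card W = p ^ 3) {w1 w2 : G} (hw1 : w1 ∈ W)
    (hw2 : w2 ∈ W) (hne : w1 * w2 ≠ w2 * w1) : closure {w1, w2} = W := by
  have hpp : p.Prime := Fact.out
  have hle : closure {w1, w2} ≤ W := by
    rw [closure_le]
    rintro a (rfl | rfl)
    · exact hw1
    · exact hw2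
  have h1 : w1 ∈ closure {w1, w2} := subset_closure (by simp)
  have h2 : w2 ∈ closure {w1, w2} := subset_closure (by simp)
  have hd : Nat.card (closure {w1, w2}) ∣ p ^ 3 := hW3 ▸ card_dvd_of_le hle
  obtain ⟨i, hi, hc⟩ := (Nat.dvd_prime_pow hpp).1 hd
  have key : (∀ a b : closure {w1, w2}, a * b = b * a) → False := fun h =>
    hne (congrArg Subtype.val (h ⟨w1, h1⟩ ⟨w2, h2⟩))
  interval_cases i
  · exfalso
    apply key
    rw [pow_zero] at hc
    have : Subsingleton (closure {w1, w2}) := (Nat.card_eq_one_iff_unique.1 hc).1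
    intro a b
    exact Subsingleton.elim _ _
  · exfalso
    apply key
    rw [pow_one] at hc
    have := isCyclic_of_prime_card hc
    intro a b
    exact (IsCyclic.isMulCommutative (α := closure {w1, w2})).is_comm.comm a b
  · exfalso
    apply key
    exact (IsPGroup.isMulCommutative_of_card_eq_prime_sq hc).is_comm.comm
  · exact eq_of_le_of_card_ge hle (by rw [hc, hW3])

/-- [Q4] -/
theorem eq_W (hp2 : p ≠ 2) {P K Z₀ W : Subgroup G} (hP : IsPGroup p P)
    (hKP : K ≤ normalizer (P : Set G)) (hK1 : K ≠ ⊥) (hKp : (Nat.card K).Coprime p)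
    (hZ₀ : Nat.card Z₀ = p) (hZ₀c : Z₀ ≤ centralizer (P : Set G))
    (hfix : ∀ k ∈ K, k ≠ 1 → P ⊓ centralizer ({k} : Set G) = Z₀)
    (hW : IsW p P Z₀ W) (hKW : K ≤ normalizer (W : Set G)) (hW3 : Nat.card W = p ^ 3)
    (hWna : ¬ IsMulCommutative W)
    {x : G} (hxW : x ∈ W)
    (hab : IsMulCommutative ↥(P ⊓ centralizer ({x} : Set G)))
    (hrk : ∀ A : Subgroup G, A ≤ P ⊓ centralizer ({x} : Set G) → IsElementaryAbelian p A →
      Nat.card A ≤ p ^ 2) :
    P = W := by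
  have hpp : p.Prime := Fact.out
  obtain ⟨w1, hw1, w2, hw2, hne⟩ : ∃ w1 ∈ W, ∃ w2 ∈ W, w1 * w2 ≠ w2 * w1 := by
    by_contra hcon
    push Not at hcon
    exact hWna ⟨⟨fun a b => Subtype.ext (hcon a a.2 b b.2)⟩⟩
  have hcl : closure {w1, w2} = W := closure_pair_eq hW3 hw1 hw2 hne
  have hCcomm : ∀ a ∈ P ⊓ centralizer ({x} : Set G), ∀ b ∈ P ⊓ centralizer ({x} : Set G),
      a * b = b * a := fun a ha b hb =>
    congrArg Subtype.val (hab.is_comm.comm ⟨a, ha⟩ ⟨b, hb⟩)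
  -- `x` is not central in `W`
  have hxnc : x ∉ centralizer (W : Set G) := by
    intro hx
    have h : ∀ w ∈ W, w ∈ P ⊓ centralizer ({x} : Set G) := fun w hw =>
      ⟨hW.le hw, mem_centralizer_singleton_iff.2 (mem_centralizer_iff.1 hx w hw)⟩
    exact hne (hCcomm w1 (h w1 hw1) w2 (h w2 hw2))
  set R : Subgroup G := P ⊓ centralizer (W : Set G) with hR
  have hRC : R ≤ P ⊓ centralizer ({x} : Set G) :=
    inf_le_inf_left _ (centralizer_le (by simpa using hxW))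
  have hZ₀P : Z₀ ≤ P := hW.lt.le.trans hW.le
  have hZ₀R : Z₀ ≤ R := le_inf hZ₀P (hZ₀c.trans (centralizer_le (by exact_mod_cast hW.le)))
  -- `P = R W`
  have hPRW : ∀ y ∈ P, ∃ u ∈ W, y * u⁻¹ ∈ R := by
    intro y hy
    set z : G := w1 * w2 * w1⁻¹ * w2⁻¹ with hz
    have hzZ : z ∈ Z₀ := hW.comm w1 hw1 w2 (hW.le hw2)
    have hz1 : z ≠ 1 := by
      intro h
      apply hne
      rw [hz, mul_inv_eq_one, mul_inv_eq_iff_eq_mul] at h
      exact h
    have hgen : ∀ c ∈ Z₀, ∃ a : ℤ, z ^ a = c := by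
      intro c hc
      have h := mem_zpowers_of_prime_card (G := Z₀) hZ₀ (g := ⟨z, hzZ⟩) (g' := ⟨c, hc⟩)
        (fun h => hz1 (congrArg Subtype.val h))
      obtain ⟨a, ha⟩ := mem_zpowers_iff.1 h
      exact ⟨a, by simpa using congrArg Subtype.val ha⟩
    set φ1 := cHom hZ₀c w1 (hW.comm w1 hw1) with hφ1
    set φ2 := cHom hZ₀c w2 (hW.comm w2 hw2) with hφ2
    obtain ⟨a, ha⟩ := hgen _ (hW.comm w1 hw1 y hy)
    obtain ⟨b, hb⟩ := hgen _ (hW.comm w2 hw2 y hy)
    let v1 : P := ⟨w1, hW.le hw1⟩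
    let v2 : P := ⟨w2, hW.le hw2⟩
    let u : P := v1 ^ (-b) * v2 ^ a
    have h11 : φ1 v1 = 1 := by rw [hφ1, cHom_apply]; simp [v1]
    have h22 : φ2 v2 = 1 := by rw [hφ2, cHom_apply]; simp [v2]
    have h12 : φ1 v2 = z := by rw [hφ1, cHom_apply]
    have h21 : φ2 v1 = z⁻¹ := by rw [hφ2, cHom_apply, hz]; simp [v1, mul_assoc]
    have hu1 : φ1 u = z ^ a := by
      simp only [u, map_mul, map_zpow, h11, h12, one_zpow, one_mul]
    have hu2 : φ2 u = z ^ b := by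
      simp only [u, map_mul, map_zpow, h21, h22, one_zpow, mul_one, inv_zpow', neg_neg]
    have hy1 : φ1 ⟨y, hy⟩ = z ^ a := by rw [hφ1, cHom_apply, ha]
    have hy2 : φ2 ⟨y, hy⟩ = z ^ b := by rw [hφ2, cHom_apply, hb]
    have e1 : φ1 (⟨y, hy⟩ * u⁻¹) = 1 := by rw [map_mul, map_inv, hy1, hu1, mul_inv_cancel]
    have e2 : φ2 (⟨y, hy⟩ * u⁻¹) = 1 := by rw [map_mul, map_inv, hy2, hu2, mul_inv_cancel]
    refine ⟨(u : G), ?_, ?_⟩
    · simp only [u, Subgroup.coe_mul, Subgroup.coe_zpow, v1, v2]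
      exact mul_mem (zpow_mem hw1 _) (zpow_mem hw2 _)
    · have hmem : y * (u : G)⁻¹ ∈ P := mul_mem hy (inv_mem u.2)
      refine mem_inf.2 ⟨hmem, ?_⟩
      rw [← hcl, centralizer_closure, mem_centralizer_iff]
      rw [hφ1, cHom_apply, mul_inv_eq_one, mul_inv_eq_iff_eq_mul] at e1
      rw [hφ2, cHom_apply, mul_inv_eq_one, mul_inv_eq_iff_eq_mul] at e2
      rintro h (rfl | rfl)
      · simpa using e1
      · simpa using e2
  -- `Ω₁(C_P(x))`
  let E : Subgroup G :=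
    { carrier := {a | a ∈ P ⊓ centralizer ({x} : Set G) ∧ a ^ p = 1}
      mul_mem' := fun {a b} ha hb => ⟨mul_mem ha.1 hb.1, by
        rw [Commute.mul_pow (show Commute a b from hCcomm a ha.1 b hb.1), ha.2, hb.2, one_mul]⟩
      one_mem' := ⟨one_mem _, one_pow _⟩
      inv_mem' := fun {a} ha => ⟨inv_mem ha.1, by rw [inv_pow, ha.2, inv_one]⟩ }
  have hEmem : ∀ a, a ∈ E ↔ a ∈ P ⊓ centralizer ({x} : Set G) ∧ a ^ p = 1 := fun a => Iff.rfl
  have hEC : E ≤ P ⊓ centralizer ({x} : Set G) := fun a ha => ha.1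
  have hEel : IsElementaryAbelian p E :=
    ⟨⟨⟨fun a b => Subtype.ext (hCcomm a a.2.1 b b.2.1)⟩⟩, fun a ha => ha.2⟩
  have hE2 : Nat.card E ≤ p ^ 2 := hrk E hEC hEel
  have hxE : x ∈ E := ⟨⟨hW.le hxW, mem_centralizer_singleton_iff.2 rfl⟩, hW.pow x hxW⟩
  have hD : E ⊓ centralizer (W : Set G) = Z₀ := by
    symm
    apply eq_of_le_of_card_ge
    · intro c hc
      exact ⟨⟨hRC (hZ₀R hc), hW.pow c (hW.lt.le hc)⟩, (hZ₀R hc).2⟩
    · have hlt : E ⊓ centralizer (W : Set G) < E :=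
        lt_of_le_of_ne inf_le_left (fun h => hxnc (by
          have h' : x ∈ E ⊓ centralizer (W : Set G) := by rw [h]; exact hxE
          exact h'.2))
      have hclt : Nat.card ↥(E ⊓ centralizer (W : Set G)) < Nat.card E := by
        by_contra hcon
        exact hlt.ne (eq_of_le_of_card_ge hlt.le (not_lt.1 hcon))
      have hpg : IsPGroup p ↥(E ⊓ centralizer (W : Set G)) :=
        hP.to_le (inf_le_left.trans (hEC.trans inf_le_left))
      obtain ⟨j, hj⟩ := IsPGroup.iff_card.1 hpg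
      rw [hj, hZ₀]
      rw [hj] at hclt
      have hj2 : j < 2 := (Nat.pow_lt_pow_iff_right hpp.one_lt).1 (hclt.trans_le hE2)
      calc p ^ j ≤ p ^ 1 := Nat.pow_le_pow_right hpp.pos (by omega)
        _ = p := pow_one p
  have hRom : ∀ y ∈ R, y ^ p = 1 → y ∈ Z₀ := fun y hy hyp => hD ▸ ⟨⟨hRC hy, hyp⟩, hy.2⟩
  -- `K` acts on `R`
  have hKR : K ≤ normalizer (R : Set G) := by
    apply le_normalizer_of_conj
    intro k hk r hr
    refine mem_inf.2 ⟨conj_mem_of_normalizer hKP hk hr.1, ?_⟩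
    rw [mem_centralizer_iff]
    intro w hw
    have hw' : k⁻¹ * w * k⁻¹⁻¹ ∈ W := conj_mem_of_normalizer hKW (inv_mem hk) hw
    have h := mem_centralizer_iff.1 hr.2 _ hw'
    calc w * (k * r * k⁻¹) = k * ((k⁻¹ * w * k⁻¹⁻¹) * r) * k⁻¹ := by group
      _ = k * (r * (k⁻¹ * w * k⁻¹⁻¹)) * k⁻¹ := by rw [h]
      _ = k * r * k⁻¹ * w := by group
  have hRc : IsMulCommutative R :=
    ⟨⟨fun a b => Subtype.ext (hCcomm a (hRC a.2) b (hRC b.2))⟩⟩
  have hRp : IsPGroup p R := hP.to_le inf_le_left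
  have hdisj : ⁅R, K⁆ ⊓ centralizer (K : Set G) = ⊥ := by
    apply Cfsg.Agent.Lib.Helper48.commutator_inf_centralizer_eq_bot hRc hKR
    intro v hv hvK
    obtain ⟨n, hn⟩ := hRp ⟨v, hv⟩
    have hn' : v ^ p ^ n = 1 := by simpa using congrArg Subtype.val hn
    have h1 : orderOf v ∣ Nat.card K := orderOf_dvd_of_pow_eq_one hvK
    have h2 : orderOf v ∣ p ^ n := orderOf_dvd_of_pow_eq_one hn'
    have h3 : orderOf v = 1 := Nat.eq_one_of_dvd_coprimes (hKp.pow_right n) h1 h2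
    exact orderOf_eq_one_iff.1 h3
  have hZ₀K : Z₀ ≤ centralizer (K : Set G) := by
    intro c hc
    rw [mem_centralizer_iff]
    intro k hk
    by_cases hk1 : k = 1
    · rw [hk1]; simp
    · have := (hfix k hk hk1 ▸ hc : c ∈ P ⊓ centralizer ({k} : Set G)).2
      exact (mem_centralizer_singleton_iff.1 this).symm
  have hcomR : ⁅R, K⁆ ≤ R := by
    rw [commutator_le]
    intro r hr k hk
    have : ⁅r, k⁆ = r * (k * r⁻¹ * k⁻¹) := by rw [commutatorElement_def]; group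
    rw [this]
    exact mul_mem hr (conj_mem_of_normalizer hKR hk (inv_mem hr))
  have hcom : ⁅R, K⁆ = ⊥ := by
    by_contra hcon
    have hpg : IsPGroup p ↥⁅R, K⁆ := hRp.to_le hcomR
    have : Nontrivial ↥⁅R, K⁆ := (nontrivial_iff_ne_bot _).2 hcon
    have hpd : p ∣ Nat.card ↥⁅R, K⁆ := by
      obtain ⟨n, hn⟩ := IsPGroup.iff_card.1 hpg
      rw [hn]
      apply dvd_pow_self
      rintro rfl
      rw [pow_zero] at hn
      exact (Finite.one_lt_card (α := ↥⁅R, K⁆)).ne' hn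
    obtain ⟨y, hy⟩ := exists_prime_orderOf_dvd_card' p hpd
    have hyp : (y : G) ^ p = 1 := by
      have := pow_orderOf_eq_one y
      rw [hy] at this
      simpa using congrArg Subtype.val this
    have hyZ : (y : G) ∈ Z₀ := hRom y (hcomR y.2) hyp
    have hyb : (y : G) ∈ ⁅R, K⁆ ⊓ centralizer (K : Set G) := ⟨y.2, hZ₀K hyZ⟩
    rw [hdisj, mem_bot] at hyb
    have hy1 : y = 1 := Subtype.ext hyb
    rw [hy1, orderOf_one] at hy
    exact hpp.one_lt.ne hy
  rw [commutator_eq_bot_iff_le_centralizer] at hcom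
  obtain ⟨k, hk, hk1⟩ := exists_ne_one_of_ne_bot hK1
  have hRZ : R ≤ Z₀ := by
    rw [← hfix k hk hk1]
    exact le_inf inf_le_left (hcom.trans (centralizer_le (by simpa using hk)))
  apply le_antisymm _ hW.le
  intro y hy
  obtain ⟨u, hu, hyu⟩ := hPRW y hy
  have := mul_mem (hW.lt.le (hRZ hyu)) hu
  simpa using this

end Cfsg.Agent.Lib.Helper52.P1
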