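import Cfsg.Agent.Lib.Helper52.FPF

/-!
A Frobenius group acting on an abelian group.
-/

set_option autoImplicit false

namespace Cfsg.Agent.Lib.Helper52

open Subgroup Finset

section frobenius_action
variable {F V : Type*} [Group F] [CommGroup V] [MulDistribMulAction F V]

/-- The norm of `u` over a finite subgroup `Q` is fixed by `Q`. -/
theorem smul_subgroup_norm (Q : Subgroup F) [Fintype Q] (u : V) (q : F) (hq : q ∈ Q) :
    q • ∏ k : Q, (k : F) • u = ∏ k : Q, (k : F) • u := by
  rw [Finset.smul_prod']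
  simp only [smul_smul]
  exact Fintype.prod_equiv (Equiv.mulLeft (⟨q, hq⟩ : Q)) _ _ (fun k => rfl)

/-- A Frobenius group `N H` acting on an abelian group `V` such that neither `N` nor `H` has a nontrivial fixed point:
then `V` has exponent dividing `|N|`. -/
theorem pow_card_eq_one_of_frobenius (N H : Subgroup F) [N.Normal] [Finite N] [Finite H]
    (hNH : ∀ h ∈ H, h ≠ 1 → ∀ n ∈ N, n * h = h * n → n = 1)
    (hCN : ∀ v : V, (∀ n ∈ N, n • v = v) → v = 1)
    (hCH : ∀ v : V, (∀ h ∈ H, h • v = v) → v = 1) (v : V) : v ^ Nat.card N = 1 := by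
  classical
  have : Fintype N := Fintype.ofFinite N
  have : Fintype H := Fintype.ofFinite H
  have hN1 : ∀ u : V, ∏ n : N, (n : F) • u = 1 := fun u => hCN _ (fun q hq => smul_subgroup_norm N u q hq)
  have hH1 : ∀ u : V, ∏ h : H, (h : F) • u = 1 := fun u => hCH _ (fun q hq => smul_subgroup_norm H u q hq)
  have hA1 : ∏ n : N, ∏ h : H, ((n : F) * h * (n : F)⁻¹) • v = 1 := by
    refine Finset.prod_eq_one (fun n _ => ?_)
    have h1 : ∏ h : H, ((n : F) * h * (n : F)⁻¹) • v = (n : F) • ∏ h : H, (h : F) • ((n : F)⁻¹ • v) := by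
      rw [Finset.smul_prod']
      simp only [smul_smul, mul_assoc]
    rw [h1, hH1, smul_one]
  rw [Finset.prod_comm] at hA1
  rw [Fintype.prod_eq_single (1 : H)] at hA1
  · simpa [Nat.card_eq_fintype_card] using hA1
  · intro h hh
    have hh1 : (h : F) ≠ 1 := fun e => hh (Subtype.ext e)
    let e : N → N := fun n => ⟨(n : F) * h * (n : F)⁻¹ * (h : F)⁻¹,
      mul_mem n.2 (‹N.Normal›.conj_mem _ (inv_mem n.2) h)|> fun hm => by
        have : (n : F) * h * (n : F)⁻¹ * (h : F)⁻¹ = (n : F) * ((h : F) * (n : F)⁻¹ * (h : F)⁻¹) := by group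
        rw [this]; exact hm⟩
    have hinj : Function.Injective e := by
      intro n m hnm
      have h1 : (n : F) * h * (n : F)⁻¹ * (h : F)⁻¹ = (m : F) * h * (m : F)⁻¹ * (h : F)⁻¹ :=
        congrArg Subtype.val hnm
      have h2 : (n : F) * h * (n : F)⁻¹ = (m : F) * h * (m : F)⁻¹ := mul_right_cancel h1
      have h3 : ((m : F)⁻¹ * n) * h = h * ((m : F)⁻¹ * n) := by
        calc ((m : F)⁻¹ * n) * h = (m : F)⁻¹ * ((n : F) * h * (n : F)⁻¹) * n := by group
          _ = (m : F)⁻¹ * ((m : F) * h * (m : F)⁻¹) * n := by rw [h2]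
          _ = h * ((m : F)⁻¹ * n) := by group
      have h4 := hNH h h.2 hh1 _ (mul_mem (inv_mem m.2) n.2) h3
      exact (Subtype.ext (inv_mul_eq_one.1 h4)).symm
    have hbij : Function.Bijective e := ⟨hinj, Finite.surjective_of_injective hinj⟩
    have h5 : ∏ n : N, ((n : F) * h * (n : F)⁻¹) • v = ∏ n : N, ((e n : N) : F) • ((h : F) • v) := by
      refine Finset.prod_congr rfl (fun n _ => ?_)
      rw [smul_smul]
      congr 1
      change _ = (n : F) * h * (n : F)⁻¹ * (h : F)⁻¹ * h
      group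
    rw [h5, hbij.prod_comp (fun m : N => (m : F) • ((h : F) • v)), hN1]

end frobenius_action

end Cfsg.Agent.Lib.Helper52
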