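import Mathlib.GroupTheory.SchurZassenhaus
import Mathlib.GroupTheory.Solvable
import Mathlib.GroupTheory.Sylow
import Mathlib.GroupTheory.Complement
import Mathlib.GroupTheory.Subgroup.Centralizer
import Mathlib.GroupTheory.GroupAction.Basic
import Mathlib.GroupTheory.Index

/-!
Schur–Zassenhaus conjugacy and its first consequences (self-contained copy of helper52's proofs of
S0002, S0001, S0059, kept in a library file so that the auxiliary lemmas stay available).
-/

set_option autoImplicit false

namespace Cfsg.Agent.Lib.Helper52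

universe u

section S0002


open scoped Pointwise
open MulOpposite MulAction Subgroup

/-- A complement of the abelian normal Hall subgroup `A` is the stabilizer of a point of `A.QuotientDiff`. -/
theorem eq_stabilizer {G : Type*} [Group G] [Finite G] (A : Subgroup G) [A.Normal] [IsMulCommutative A]
    (hA : (Nat.card A).Coprime A.index) (H : Subgroup G) (hH : Subgroup.IsComplement' A H) :
    ∃ α : A.QuotientDiff, H = stabilizer G α := by
  let T : A.LeftTransversal := ⟨(H : Set G), hH.symm⟩
  let α : A.QuotientDiff := Quotient.mk'' T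
  refine ⟨α, ?_⟩
  have hle : H ≤ stabilizer G α := by
    intro h hh
    rw [mem_stabilizer_iff]
    have : (op h⁻¹ • T : A.LeftTransversal) = T := by
      apply Subtype.ext
      show op h⁻¹ • (H : Set G) = (H : Set G)
      ext x
      rw [Set.mem_smul_set_iff_inv_smul_mem]
      simp only [← op_inv, inv_inv, smul_eq_mul_unop, unop_op, SetLike.mem_coe]
      exact H.mul_mem_cancel_right hh
    show (Quotient.mk'' (op h⁻¹ • T) : A.QuotientDiff) = Quotient.mk'' T
    rw [this]
  have hc := isComplement'_stabilizer_of_coprime (α := α) hA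
  have h1 := hc.card_mul_card
  have h2 := hH.card_mul_card
  have hcard : Nat.card (stabilizer G α) = Nat.card H := by
    have : Nat.card A * Nat.card (stabilizer G α) = Nat.card A * Nat.card H := by
      rw [h1, h2]
    exact Nat.eq_of_mul_eq_mul_left Nat.card_pos this
  exact Subgroup.eq_of_le_of_card_ge hle hcard.le

theorem schur_conj_abelian {G : Type*} [Group G] [Finite G] (A : Subgroup G) [A.Normal] [IsMulCommutative A]
    (hA : (Nat.card A).Coprime A.index)
    (H K : Subgroup G) (hH : Subgroup.IsComplement' A H) (hK : Subgroup.IsComplement' A K) :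
    ∃ a ∈ A, MulAut.conj a • H = K := by
  obtain ⟨α, rfl⟩ := eq_stabilizer A hA H hH
  obtain ⟨β, rfl⟩ := eq_stabilizer A hA K hK
  obtain ⟨a, ha⟩ := exists_smul_eq hA α β
  refine ⟨a, a.2, ?_⟩
  rw [← ha]
  exact (MulAction.stabilizer_smul_eq_stabilizer_map_conj (a : G) α).symm


end S0002

section S0001


open scoped Pointwise
open Subgroup


/-- The image of a subgroup under a homomorphism whose kernel it meets trivially has the same order. -/
theorem card_map_of_disjoint {G G' : Type*} [Group G] [Group G'] (f : G →* G') (H : Subgroup G)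
    (h : Disjoint H f.ker) : Nat.card (H.map f) = Nat.card H := by
  have hinj : Set.InjOn f (H : Set G) := by
    intro a ha b hb hab
    have h1 : a⁻¹ * b ∈ H ⊓ f.ker := by
      refine Subgroup.mem_inf.2 ⟨H.mul_mem (H.inv_mem ha) hb, ?_⟩
      rw [MonoidHom.mem_ker, map_mul, map_inv, hab, inv_mul_cancel]
    rw [h.eq_bot, Subgroup.mem_bot] at h1
    exact (inv_mul_eq_one.1 h1)
  exact Nat.card_image_of_injOn hinj

/-- A subgroup of order `N.index` is a complement of the normal Hall subgroup `N`. -/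
theorem isComplement'_of_card {G : Type*} [Group G] [Finite G] (N : Subgroup G)
    (hN : (Nat.card N).Coprime N.index) (H : Subgroup G) (hH : Nat.card H = N.index) :
    IsComplement' N H :=
  isComplement'_of_coprime (by rw [hH, N.card_mul_index]) (by rw [hH]; exact hN)

/-- From elementwise conjugation into a subgroup of the same finite order to equality. -/
theorem smul_eq_of_forall {G : Type*} [Group G] [Finite G] (H K : Subgroup G)
    (hcard : Nat.card H = Nat.card K) (g : G) (h : ∀ x ∈ H, g * x * g⁻¹ ∈ K) :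
    MulAut.conj g • H = K := by
  apply Subgroup.eq_of_le_of_card_ge
  · intro y hy
    obtain ⟨x, hx, rfl⟩ := Subgroup.mem_smul_pointwise_iff_exists _ _ _ |>.1 hy
    exact h x hx
  · rw [← hcard]
    exact (Nat.card_congr (Subgroup.equivSMul (MulAut.conj g) H).toEquiv).le

theorem card_subgroupOf_of_le {G : Type*} [Group G] {H L : Subgroup G} (h : H ≤ L) :
    Nat.card (H.subgroupOf L) = Nat.card H :=
  Nat.card_congr (subgroupOfEquivOfLe h).toEquiv

/-- Images of a normal Hall subgroup and of a complement under a surjection. -/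
theorem card_map_eq_index {G G' : Type*} [Group G] [Finite G] [Group G'] (f : G →* G')
    (hf : Function.Surjective f) (N H : Subgroup G)
    (hN : (Nat.card N).Coprime N.index) (hH : Nat.card H = N.index) :
    Nat.card (H.map f) = (N.map f).index ∧ (Nat.card (N.map f)).Coprime (N.map f).index := by
  have hc := isComplement'_of_card N hN H hH
  have hcop : (Nat.card (N.map f)).Coprime (Nat.card (H.map f)) := by
    refine Nat.Coprime.of_dvd (card_map_dvd N f) (card_map_dvd H f) ?_
    rw [hH]; exact hN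
  have hc' : IsComplement' (N.map f) (H.map f) := by
    apply isComplement'_of_disjoint_and_mul_eq_univ (disjoint_of_coprime_natCard hcop)
    rw [Set.eq_univ_iff_forall]
    intro y
    obtain ⟨x, rfl⟩ := hf y
    obtain ⟨⟨n, h⟩, rfl⟩ := hc.2 x
    exact ⟨f n, ⟨n, n.2, rfl⟩, f h, ⟨h, h.2, rfl⟩, (map_mul f _ _).symm⟩
  have h1 : (N.map f).index = Nat.card (H.map f) := hc'.symm.index_eq_card
  exact ⟨h1.symm, by rw [h1]; exact hcop⟩

/-- Conjugacy of complements when the normal Hall subgroup is solvable (elementwise form). -/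
theorem conj_of_solvable_normal (n : ℕ) : ∀ (G : Type u) [Group G] [Finite G] (N : Subgroup G) [N.Normal],
    Nat.card N = n → (Nat.card N).Coprime N.index → Group.IsSolvable N →
    ∀ H K : Subgroup G, Nat.card H = N.index → Nat.card K = N.index →
    ∃ g : G, ∀ x ∈ H, g * x * g⁻¹ ∈ K := by
  induction n using Nat.strong_induction_on with
  | _ n ih =>
  intro G _ _ N _ hn hcop hsol H K hH hK
  have hDN : ⁅N, N⁆ ≤ N := commutator_le_self N
  by_cases hD : ⁅N, N⁆ = ⊥
  · have hcomm : IsMulCommutative N := by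
      rw [commutator_eq_bot_iff_le_centralizer] at hD
      exact ⟨⟨fun a b => Subtype.ext ((hD a.2 b b.2).symm)⟩⟩
    obtain ⟨a, -, ha⟩ := schur_conj_abelian N hcop H K (isComplement'_of_card N hcop H hH)
      (isComplement'_of_card N hcop K hK)
    refine ⟨a, fun x hx => ?_⟩
    rw [← ha]
    exact Subgroup.smul_mem_pointwise_smul x (MulAut.conj a) H hx
  · have hDnormal : (⁅N, N⁆ : Subgroup G).Normal := commutator_normal N N
    generalize hDdef : (⁅N, N⁆ : Subgroup G) = D at hDN hD hDnormal
    have hNne : N ≠ ⊥ := by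
      rintro rfl
      exact hD (le_bot_iff.1 hDN)
    have hDne : D ≠ N := by
      have : Nontrivial N := (nontrivial_iff_ne_bot N).2 hNne
      have h := Group.IsSolvable.commutator_lt_top_of_nontrivial N
      intro hDN'
      have h2 : (commutator N).map N.subtype = (⊤ : Subgroup N).map N.subtype := by
        rw [commutator_def, map_commutator, ← MonoidHom.range_eq_map, range_subtype, hDdef, hDN']
      exact h.ne (map_injective N.subtype_injective h2)
    have hDcard : Nat.card D < n := by
      by_contra hcon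
      exact hDne (Subgroup.eq_of_le_of_card_ge hDN (by omega))
    -- step 1: quotient by D
    have hf : Function.Surjective (QuotientGroup.mk' D) := QuotientGroup.mk'_surjective D
    have hN' : (N.map (QuotientGroup.mk' D)).Normal := Normal.map inferInstance _ hf
    obtain ⟨hH', hcop'⟩ := card_map_eq_index _ hf N H hcop hH
    obtain ⟨hK', -⟩ := card_map_eq_index _ hf N K hcop hK
    have hcardlt : Nat.card (N.map (QuotientGroup.mk' D)) < n := by
      have h5 : Nat.card (G ⧸ D) < Nat.card G := by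
        rw [← index_eq_card, ← D.index_mul_card]
        exact lt_mul_of_one_lt_right (Nat.pos_of_ne_zero index_ne_zero_of_finite)
          (D.one_lt_card_iff_ne_bot.mpr hD)
      have h6 : (N.map (QuotientGroup.mk' D)).index = N.index :=
        index_map_eq N hf (by rwa [QuotientGroup.ker_mk'])
      rw [← (N.map (QuotientGroup.mk' D)).card_mul_index, ← N.card_mul_index, h6, hn] at h5
      exact Nat.lt_of_mul_lt_mul_right h5
    have hsol' : Group.IsSolvable (N.map (QuotientGroup.mk' D)) :=
      Group.isSolvable_of_surjective ((QuotientGroup.mk' D).subgroupMap_surjective N)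
    obtain ⟨q, hq⟩ := ih _ hcardlt (G ⧸ D) (N.map (QuotientGroup.mk' D)) rfl hcop' hsol'
      (H.map (QuotientGroup.mk' D)) (K.map (QuotientGroup.mk' D)) hH' hK'
    obtain ⟨g, rfl⟩ := hf q
    have hg : ∀ x ∈ H, g * x * g⁻¹ ∈ K ⊔ D := by
      intro x hx
      have := hq _ (mem_map_of_mem (QuotientGroup.mk' D) hx)
      rw [← map_inv, ← map_mul, ← map_mul, ← mem_comap, comap_map_eq, QuotientGroup.ker_mk'] at this
      exact this
    -- step 2: inside L = K ⊔ D
    have hKL : K ≤ K ⊔ D := le_sup_left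
    have hDL : D ≤ K ⊔ D := le_sup_right
    have hH₁L : MulAut.conj g • H ≤ K ⊔ D := by
      intro y hy
      obtain ⟨x, hx, rfl⟩ := Subgroup.mem_smul_pointwise_iff_exists _ _ _ |>.1 hy
      exact hg x hx
    have hcopD : (Nat.card D).Coprime (Nat.card K) := by
      rw [hK]
      exact Nat.Coprime.of_dvd_left (card_dvd_of_le hDN) hcop
    have hidx : (D.subgroupOf (K ⊔ D)).index = Nat.card K := by
      show D.relIndex (K ⊔ D) = _
      rw [relIndex_sup_right, relIndex, subgroupOf_eq_bot.2 (disjoint_of_coprime_natCard hcopD), index_bot]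
    have hsolD : Group.IsSolvable (D.subgroupOf (K ⊔ D)) := by
      refine Group.isSolvable_of_isSolvable_injective
        (f := (inclusion hDN).comp (subgroupOfEquivOfLe hDL).toMonoidHom) ?_
      exact (inclusion_injective hDN).comp (subgroupOfEquivOfLe hDL).injective
    have hcardH₁ : Nat.card (MulAut.conj g • H : Subgroup G) = Nat.card H :=
      (Nat.card_congr (Subgroup.equivSMul (MulAut.conj g) H).toEquiv).symm
    obtain ⟨l, hl⟩ := ih (Nat.card D) hDcard (K ⊔ D : Subgroup G) (D.subgroupOf (K ⊔ D))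
      (card_subgroupOf_of_le hDL) (by rw [card_subgroupOf_of_le hDL, hidx]; exact hcopD) hsolD
      ((MulAut.conj g • H).subgroupOf (K ⊔ D)) (K.subgroupOf (K ⊔ D))
      (by rw [card_subgroupOf_of_le hH₁L, hidx, hcardH₁, hH, hK])
      (by rw [card_subgroupOf_of_le hKL, hidx])
    refine ⟨l * g, fun x hx => ?_⟩
    have := hl ⟨g * x * g⁻¹, hg x hx⟩
      (mem_subgroupOf.2 (Subgroup.smul_mem_pointwise_smul x (MulAut.conj g) H hx))
    rw [mem_subgroupOf] at this
    simpa [mul_assoc] using this

/-- A nontrivial finite solvable group has a nontrivial normal `p`-subgroup for some prime `p`. -/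
theorem exists_normal_pGroup (Q : Type*) [Group Q] [Finite Q] [hQ : Group.IsSolvable Q] [Nontrivial Q] :
    ∃ (p : ℕ) (M : Subgroup Q), p.Prime ∧ M.Normal ∧ IsPGroup p M ∧ M ≠ ⊥ := by
  classical
  obtain ⟨A, hAn, hAc, hAne⟩ : ∃ A : Subgroup Q, A.Normal ∧ (∀ a ∈ A, ∀ b ∈ A, a * b = b * a) ∧ A ≠ ⊥ := by
    have hex : ∃ n, derivedSeries Q n = ⊥ := hQ.solvable
    have hm : derivedSeries Q (Nat.find hex) = ⊥ := Nat.find_spec hex
    have hm0 : Nat.find hex ≠ 0 := by
      intro h0
      rw [h0, derivedSeries_zero] at hm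
      exact top_ne_bot hm
    obtain ⟨k, hk⟩ := Nat.exists_eq_succ_of_ne_zero hm0
    refine ⟨derivedSeries Q k, derivedSeries_normal Q k, ?_, ?_⟩
    · rw [hk, Nat.succ_eq_add_one, derivedSeries_succ, commutator_eq_bot_iff_le_centralizer] at hm
      intro a ha b hb
      exact (hm ha b hb).symm
    · exact Nat.find_min hex (by omega : k < Nat.find hex)
  have hcard : Nat.card A ≠ 1 := by
    intro h1
    exact hAne (A.eq_bot_of_card_eq h1)
  have hp : (Nat.card A).minFac.Prime := Nat.minFac_prime hcard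
  generalize hpdef : (Nat.card A).minFac = p at hp
  have : Fact p.Prime := ⟨hp⟩
  obtain ⟨x, hx⟩ := exists_prime_orderOf_dvd_card' (G := A) p (hpdef ▸ Nat.minFac_dvd _)
  let M : Subgroup Q :=
    { carrier := {a | a ∈ A ∧ a ^ p = 1}
      mul_mem' := by
        rintro a b ⟨ha, ha'⟩ ⟨hb, hb'⟩
        refine ⟨A.mul_mem ha hb, ?_⟩
        rw [(show Commute a b from hAc a ha b hb).mul_pow, ha', hb', one_mul]
      one_mem' := ⟨A.one_mem, one_pow _⟩
      inv_mem' := by
        rintro a ⟨ha, ha'⟩
        exact ⟨A.inv_mem ha, by rw [inv_pow, ha', inv_one]⟩ }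
  refine ⟨p, M, hp, ⟨?_⟩, ?_, ?_⟩
  · rintro a ⟨ha, ha'⟩ g
    exact ⟨hAn.conj_mem a ha g, by rw [conj_pow, ha', mul_one, mul_inv_cancel]⟩
  · rintro ⟨a, ha, ha'⟩
    exact ⟨1, Subtype.ext (by simpa using ha')⟩
  · intro hM
    have hxM : (x : Q) ∈ M := by
      refine ⟨x.2, ?_⟩
      have := pow_orderOf_eq_one x
      rw [hx] at this
      exact_mod_cast congrArg Subtype.val this
    rw [hM, mem_bot] at hxM
    have hx1 : x = 1 := Subtype.ext hxM
    rw [hx1, orderOf_one] at hx
    exact hp.one_lt.ne hx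

/-- The part of a complement lying over a subgroup of the quotient. -/
theorem card_comap_inf {G : Type*} [Group G] [Finite G] (N : Subgroup G) [N.Normal]
    (hN : (Nat.card N).Coprime N.index) (X : Subgroup G) (hX : Nat.card X = N.index)
    (Mb : Subgroup (G ⧸ N)) :
    Nat.card (Mb.comap (QuotientGroup.mk' N) ⊓ X : Subgroup G) = Nat.card Mb := by
  have hc := isComplement'_of_card N hN X hX
  have hdisj : Disjoint (Mb.comap (QuotientGroup.mk' N) ⊓ X) (QuotientGroup.mk' N).ker := by
    rw [QuotientGroup.ker_mk']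
    exact (hc.disjoint.symm).mono_left inf_le_right
  rw [← card_map_of_disjoint _ _ hdisj]
  have : (Mb.comap (QuotientGroup.mk' N) ⊓ X).map (QuotientGroup.mk' N) = Mb := by
    apply le_antisymm
    · rintro _ ⟨x, hx, rfl⟩
      exact hx.1
    · intro y hy
      obtain ⟨g, rfl⟩ := QuotientGroup.mk'_surjective N y
      obtain ⟨⟨n, x⟩, rfl⟩ := hc.2 g
      have hnx : QuotientGroup.mk' N ((n : G) * x) = QuotientGroup.mk' N (x : G) := by
        have h1 : QuotientGroup.mk' N (n : G) = 1 := (QuotientGroup.eq_one_iff (n : G)).2 n.2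
        rw [map_mul, h1, one_mul]
      refine ⟨x, ⟨?_, x.2⟩, hnx.symm⟩
      show QuotientGroup.mk' N (x : G) ∈ Mb
      rw [← hnx]; exact hy
  rw [this]

/-- Conjugacy of complements when the quotient by the normal Hall subgroup is solvable (elementwise form). -/
theorem conj_of_solvable_quotient (n : ℕ) : ∀ (G : Type u) [Group G] [Finite G], Nat.card G = n →
    ∀ (N : Subgroup G) [N.Normal], (Nat.card N).Coprime N.index → Group.IsSolvable (G ⧸ N) →
    ∀ H K : Subgroup G, Nat.card H = N.index → Nat.card K = N.index →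
    ∃ g : G, ∀ x ∈ H, g * x * g⁻¹ ∈ K := by
  induction n using Nat.strong_induction_on with
  | _ n ih =>
  intro G _ _ hn N _ hcop hsol H K hH hK
  by_cases hNtop : N = ⊤
  · refine ⟨1, fun x hx => ?_⟩
    rw [hNtop, index_top] at hH
    rw [H.eq_bot_of_card_eq hH, mem_bot] at hx
    rw [hx]; simp
  have hnt : Nontrivial (G ⧸ N) := by
    rw [← Finite.one_lt_card_iff_nontrivial, ← index_eq_card]
    exact one_lt_index_of_ne_top hNtop
  obtain ⟨p, Mb, hp, hMbn, hMbp, hMbne⟩ := exists_normal_pGroup (G ⧸ N)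
  have : Fact p.Prime := ⟨hp⟩
  have hMn : (Mb.comap (QuotientGroup.mk' N)).Normal := hMbn.comap _
  generalize hMdef : Mb.comap (QuotientGroup.mk' N) = M at hMn
  have hcardX : ∀ X : Subgroup G, Nat.card X = N.index → Nat.card (M ⊓ X : Subgroup G) = Nat.card Mb := by
    intro X hX
    rw [← hMdef]; exact card_comap_inf N hcop X hX Mb
  obtain ⟨a, ha⟩ := IsPGroup.iff_card.1 hMbp
  have ha0 : a ≠ 0 := by
    rintro rfl
    exact hMbne (Mb.eq_bot_of_card_eq (by simpa using ha))
  have hpN : (Nat.card N).Coprime p := by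
    refine Nat.Coprime.of_dvd_right ?_ hcop
    rw [index_eq_card]
    exact ((dvd_pow_self p ha0).trans (ha ▸ dvd_rfl)).trans (card_subgroup_dvd_card Mb)
  have hPK : IsPGroup p (M ⊓ K : Subgroup G) := IsPGroup.of_card ((hcardX K hK).trans ha)
  have hPH : IsPGroup p (M ⊓ H : Subgroup G) := IsPGroup.of_card ((hcardX H hH).trans ha)
  obtain ⟨S, hS⟩ := hPK.exists_le_sylow
  obtain ⟨S', hS'⟩ := hPH.exists_le_sylow
  obtain ⟨g, hg⟩ := MulAction.exists_smul_eq G S' S
  -- S ⊓ M = M ⊓ K
  have hSM : (S : Subgroup G) ⊓ M = M ⊓ K := by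
    symm
    apply Subgroup.eq_of_le_of_card_ge (le_inf hS inf_le_left)
    have hpg : IsPGroup p ((S : Subgroup G) ⊓ M : Subgroup G) := S.2.to_le inf_le_left
    obtain ⟨b, hb⟩ := IsPGroup.iff_card.1 hpg
    have hdisj : Disjoint ((S : Subgroup G) ⊓ M) (QuotientGroup.mk' N).ker := by
      rw [QuotientGroup.ker_mk']
      apply disjoint_of_coprime_natCard
      rw [hb]
      exact (Nat.Coprime.pow_right b hpN).symm
    rw [← card_map_of_disjoint _ _ hdisj, hcardX K hK]
    apply card_le_of_le
    rintro _ ⟨x, hx, rfl⟩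
    have := hx.2
    rw [← hMdef] at this
    exact this
  have hSg : (S : Subgroup G) = MulAut.conj g • (S' : Subgroup G) := by
    rw [← hg]; exact Sylow.coe_subgroup_smul
  have hgP : ∀ x ∈ M ⊓ H, g * x * g⁻¹ ∈ M ⊓ K := by
    intro x hx
    rw [← hSM]
    refine mem_inf.2 ⟨?_, hMn.conj_mem x hx.1 g⟩
    rw [hSg]
    exact Subgroup.smul_mem_pointwise_smul x (MulAut.conj g) _ (hS' hx)
  have hcardH₁ : Nat.card (MulAut.conj g • H : Subgroup G) = N.index := by
    rw [← hH]
    exact (Nat.card_congr (Subgroup.equivSMul (MulAut.conj g) H).toEquiv).symm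
  generalize hH₁def : MulAut.conj g • H = H₁ at hcardH₁
  have hmemH₁ : ∀ x ∈ H, g * x * g⁻¹ ∈ H₁ := by
    intro x hx
    rw [← hH₁def]
    exact Subgroup.smul_mem_pointwise_smul x (MulAut.conj g) _ hx
  have hPeq : MulAut.conj g • (M ⊓ H) = M ⊓ K :=
    smul_eq_of_forall _ _ ((hcardX H hH).trans (hcardX K hK).symm) g hgP
  have hPH₁ : M ⊓ K ≤ H₁ := by
    rw [← hPeq]
    intro y hy
    obtain ⟨x, hx, rfl⟩ := Subgroup.mem_smul_pointwise_iff_exists _ _ _ |>.1 hy
    exact hmemH₁ x hx.2
  have hMH₁ : M ⊓ K = M ⊓ H₁ :=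
    Subgroup.eq_of_le_of_card_ge (le_inf inf_le_left hPH₁) (by rw [hcardX K hK, hcardX H₁ hcardH₁])
  have hKnorm : K ≤ normalizer ((M ⊓ K : Subgroup G) : Set G) := by
    rw [le_normalizer_iff]
    intro k hk x hx
    exact mem_inf.2 ⟨hMn.conj_mem x hx.1 k, K.mul_mem (K.mul_mem hk hx.2) (K.inv_mem hk)⟩
  have hH₁norm : H₁ ≤ normalizer ((M ⊓ K : Subgroup G) : Set G) := by
    rw [hMH₁, le_normalizer_iff]
    intro k hk x hx
    exact mem_inf.2 ⟨hMn.conj_mem x hx.1 k, H₁.mul_mem (H₁.mul_mem hk hx.2) (H₁.inv_mem hk)⟩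
  have hPne : M ⊓ K ≠ ⊥ := by
    intro h0
    have := hcardX K hK
    rw [h0, card_bot] at this
    exact hMbne (Mb.eq_bot_of_card_eq this.symm)
  have hPK' : M ⊓ K ≤ K := inf_le_right
  generalize M ⊓ K = P at hKnorm hH₁norm hPne hPK' hPH₁
  -- it suffices to conjugate H₁ into K
  suffices hsuff : ∃ g₂ : G, ∀ x ∈ H₁, g₂ * x * g₂⁻¹ ∈ K by
    obtain ⟨g₂, hg₂⟩ := hsuff
    refine ⟨g₂ * g, fun x hx => ?_⟩
    have := hg₂ _ (hmemH₁ x hx)
    simpa [mul_assoc] using this
  by_cases hL : normalizer (P : Set G) = ⊤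
  · have hPn : P.Normal := normalizer_eq_top_iff.1 hL
    have hf : Function.Surjective (QuotientGroup.mk' P) := QuotientGroup.mk'_surjective P
    have hN' : (N.map (QuotientGroup.mk' P)).Normal := Normal.map inferInstance _ hf
    obtain ⟨hH', hcop'⟩ := card_map_eq_index _ hf N H₁ hcop hcardH₁
    obtain ⟨hK', -⟩ := card_map_eq_index _ hf N K hcop hK
    have h5 : Nat.card (G ⧸ P) < n := by
      rw [← hn, ← index_eq_card, ← P.index_mul_card]
      exact lt_mul_of_one_lt_right (Nat.pos_of_ne_zero index_ne_zero_of_finite)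
        (P.one_lt_card_iff_ne_bot.mpr hPne)
    have hsol' : Group.IsSolvable ((G ⧸ P) ⧸ N.map (QuotientGroup.mk' P)) := by
      refine Group.isSolvable_of_surjective
        (f := QuotientGroup.map N (N.map (QuotientGroup.mk' P)) (QuotientGroup.mk' P) (le_comap_map _ _)) ?_
      intro y
      obtain ⟨y', rfl⟩ := QuotientGroup.mk'_surjective _ y
      obtain ⟨y'', rfl⟩ := hf y'
      exact ⟨QuotientGroup.mk' N y'', rfl⟩
    obtain ⟨q, hq⟩ := ih _ h5 (G ⧸ P) rfl (N.map (QuotientGroup.mk' P)) hcop' hsol'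
      (H₁.map (QuotientGroup.mk' P)) (K.map (QuotientGroup.mk' P)) hH' hK'
    obtain ⟨g₂, rfl⟩ := hf q
    refine ⟨g₂, fun x hx => ?_⟩
    have := hq _ (mem_map_of_mem (QuotientGroup.mk' P) hx)
    rw [← map_inv, ← map_mul, ← map_mul, ← mem_comap, comap_map_eq, QuotientGroup.ker_mk',
      sup_eq_left.2 hPK'] at this
    exact this
  · generalize normalizer (P : Set G) = L at hKnorm hH₁norm hL
    have hLN : L ⊔ N = ⊤ := by
      have h1 := (isComplement'_of_card N hcop K hK).sup_eq_top
      rw [eq_top_iff, ← h1, sup_comm]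
      exact sup_le_sup_right hKnorm N
    have h4 : (N.subgroupOf L).index = N.index := by
      rw [← N.relIndex_top_right, ← hLN]
      exact (relIndex_sup_right L N).symm
    have h5 : Nat.card L < n := by
      rw [← hn, ← L.index_mul_card]
      exact lt_mul_of_one_lt_left Nat.card_pos (one_lt_index_of_ne_top hL)
    have h6 : Nat.Coprime (Nat.card (N.subgroupOf L)) (N.subgroupOf L).index := by
      rw [h4]
      exact hcop.coprime_dvd_left (card_comap_dvd_of_injective N L.subtype Subtype.coe_injective)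
    have hsol' : Group.IsSolvable (L ⧸ N.subgroupOf L) := by
      have hle : N.subgroupOf L ≤ comap L.subtype N := le_of_eq rfl
      refine Group.isSolvable_of_isSolvable_injective
        (f := QuotientGroup.map (N.subgroupOf L) N L.subtype hle) ?_
      rw [injective_iff_map_eq_one]
      intro y hy
      obtain ⟨y', rfl⟩ := QuotientGroup.mk'_surjective _ y
      have hy' : (QuotientGroup.mk (L.subtype y') : G ⧸ N) = 1 := hy
      rw [QuotientGroup.eq_one_iff] at hy'
      rw [QuotientGroup.mk'_apply, QuotientGroup.eq_one_iff]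
      exact hy'
    obtain ⟨l, hl⟩ := ih _ h5 L rfl (N.subgroupOf L) h6 hsol' (H₁.subgroupOf L) (K.subgroupOf L)
      (by rw [card_subgroupOf_of_le hH₁norm, h4, hcardH₁]) (by rw [card_subgroupOf_of_le hKnorm, h4, hK])
    refine ⟨l, fun x hx => ?_⟩
    have := hl ⟨x, hH₁norm hx⟩ (mem_subgroupOf.2 hx)
    rw [mem_subgroupOf] at this
    simpa using this

theorem schurZassenhaus_conj {G : Type*} [Group G] [Finite G] (N : Subgroup G) [N.Normal]
    (hN : (Nat.card N).Coprime N.index) (hsolv : Group.IsSolvable N ∨ Group.IsSolvable (G ⧸ N))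
    (H K : Subgroup G) (hH : Subgroup.IsComplement' N H) (hK : Subgroup.IsComplement' N K) :
    ∃ g : G, MulAut.conj g • H = K := by
  have hH' : Nat.card H = N.index := hH.symm.index_eq_card.symm
  have hK' : Nat.card K = N.index := hK.symm.index_eq_card.symm
  have : ∃ g : G, ∀ x ∈ H, g * x * g⁻¹ ∈ K := by
    rcases hsolv with h | h
    · exact conj_of_solvable_normal _ G N rfl hN h H K hH' hK'
    · exact conj_of_solvable_quotient _ G rfl N hN h H K hH' hK'
  obtain ⟨g, hg⟩ := this
  exact ⟨g, smul_eq_of_forall H K (hH'.trans hK'.symm) g hg⟩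


end S0001

section S0059


open scoped Pointwise
open Subgroup

/-- Schur–Zassenhaus conjugacy, cardinality form. -/
theorem conj_card {G : Type*} [Group G] [Finite G] (N : Subgroup G) [N.Normal]
    (hN : (Nat.card N).Coprime N.index) (hsolv : Group.IsSolvable N ∨ Group.IsSolvable (G ⧸ N))
    (H K : Subgroup G) (hH : Nat.card H = N.index) (hK : Nat.card K = N.index) :
    ∃ g : G, ∀ x ∈ H, g * x * g⁻¹ ∈ K := by
  rcases hsolv with h | h
  · exact conj_of_solvable_normal _ G N rfl hN h H K hH hK
  · exact conj_of_solvable_quotient _ G rfl N hN h H K hH hK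

/-- Data of the normal Hall subgroup `N ⊓ L` of a subgroup `L` with `L N = G`. -/
theorem subgroupOf_data {G : Type*} [Group G] [Finite G] (N : Subgroup G) [N.Normal]
    (hN : (Nat.card N).Coprime N.index) (hsolv : Group.IsSolvable N ∨ Group.IsSolvable (G ⧸ N))
    (L : Subgroup G) (hLN : L ⊔ N = ⊤) :
    (N.subgroupOf L).index = N.index ∧ (Nat.card (N.subgroupOf L)).Coprime (N.subgroupOf L).index ∧
      (Group.IsSolvable (N.subgroupOf L) ∨ Group.IsSolvable (L ⧸ N.subgroupOf L)) := by
  have h4 : (N.subgroupOf L).index = N.index := by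
    rw [← N.relIndex_top_right, ← hLN]
    exact (relIndex_sup_right L N).symm
  refine ⟨h4, ?_, ?_⟩
  · rw [h4]
    exact hN.coprime_dvd_left (card_comap_dvd_of_injective N L.subtype Subtype.coe_injective)
  · rcases hsolv with h | h
    · left
      refine Group.isSolvable_of_isSolvable_injective
        (f := (L.subtype.subgroupComap N)) ?_
      intro a b hab
      have := congrArg Subtype.val hab
      exact Subtype.ext (Subtype.ext this)
    · right
      have hle : N.subgroupOf L ≤ comap L.subtype N := le_of_eq rfl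
      refine Group.isSolvable_of_isSolvable_injective
        (f := QuotientGroup.map (N.subgroupOf L) N L.subtype hle) ?_
      rw [injective_iff_map_eq_one]
      intro y hy
      obtain ⟨y', rfl⟩ := QuotientGroup.mk'_surjective _ y
      have hy' : (QuotientGroup.mk (L.subtype y') : G ⧸ N) = 1 := hy
      rw [QuotientGroup.eq_one_iff] at hy'
      rw [QuotientGroup.mk'_apply, QuotientGroup.eq_one_iff]
      exact hy'

/-- Conjugacy of complements inside a subgroup `L` with `L N = G`. -/
theorem conj_in_subgroup {G : Type*} [Group G] [Finite G] (N : Subgroup G) [N.Normal]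
    (hN : (Nat.card N).Coprime N.index) (hsolv : Group.IsSolvable N ∨ Group.IsSolvable (G ⧸ N))
    (L : Subgroup G) (hLN : L ⊔ N = ⊤) (H K : Subgroup G) (hHL : H ≤ L) (hKL : K ≤ L)
    (hH : Nat.card H = N.index) (hK : Nat.card K = N.index) :
    ∃ l ∈ L, ∀ x ∈ H, l * x * l⁻¹ ∈ K := by
  obtain ⟨h4, h6, hs⟩ := subgroupOf_data N hN hsolv L hLN
  obtain ⟨l, hl⟩ := conj_card (N.subgroupOf L) h6 hs (H.subgroupOf L) (K.subgroupOf L)
    (by rw [card_subgroupOf_of_le hHL, h4, hH]) (by rw [card_subgroupOf_of_le hKL, h4, hK])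
  refine ⟨l, l.2, fun x hx => ?_⟩
  have := hl ⟨x, hHL hx⟩ (mem_subgroupOf.2 hx)
  rw [mem_subgroupOf] at this
  simpa using this

/-- Existence of a complement inside a subgroup `L` with `L N = G`. -/
theorem exists_complement_in_subgroup {G : Type*} [Group G] [Finite G] (N : Subgroup G) [N.Normal]
    (hN : (Nat.card N).Coprime N.index)
    (L : Subgroup G) (hLN : L ⊔ N = ⊤) : ∃ H : Subgroup G, H ≤ L ∧ Nat.card H = N.index := by
  have h4 : (N.subgroupOf L).index = N.index := by
    rw [← N.relIndex_top_right, ← hLN]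
    exact (relIndex_sup_right L N).symm
  have h6 : (Nat.card (N.subgroupOf L)).Coprime (N.subgroupOf L).index := by
    rw [h4]
    exact hN.coprime_dvd_left (card_comap_dvd_of_injective N L.subtype Subtype.coe_injective)
  obtain ⟨H, hH⟩ := exists_right_complement'_of_coprime h6
  refine ⟨H.map L.subtype, map_subtype_le H, ?_⟩
  rw [card_map_of_injective L.subtype_injective, ← h4]
  exact hH.symm.index_eq_card.symm

theorem complement_fixed_point {G : Type*} [Group G] [Finite G] {X : Type*} [Nonempty X] [MulAction G X]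
    (K H : Subgroup G) [K.Normal] (hc : Subgroup.IsComplement' K H) (hcop : (Nat.card K).Coprime K.index)
    (hsolv : Group.IsSolvable K ∨ Group.IsSolvable (G ⧸ K)) (htrans : MulAction.IsPretransitive K X) :
    (∃ x : X, ∀ h ∈ H, h • x = x) ∧
    ∀ x y : X, (∀ h ∈ H, h • x = x) → (∀ h ∈ H, h • y = y) → ∃ k ∈ K ⊓ Subgroup.centralizer (H : Set G), k • x = y := by
  have hH : Nat.card H = K.index := hc.symm.index_eq_card.symm
  have hstab : ∀ x : X, MulAction.stabilizer G x ⊔ K = ⊤ := by
    intro x
    rw [eq_top_iff]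
    intro g _
    obtain ⟨k, hk⟩ := MulAction.exists_smul_eq K (g • x) x
    have h1 : (k : G) * g ∈ MulAction.stabilizer G x := by
      rw [MulAction.mem_stabilizer_iff, mul_smul]; exact hk
    have h2 : g = (k : G)⁻¹ * ((k : G) * g) := by group
    rw [h2]
    exact mul_mem (mem_sup_right (K.inv_mem k.2)) (mem_sup_left h1)
  constructor
  · obtain ⟨x₀⟩ := ‹Nonempty X›
    obtain ⟨H₁, hH₁, hcard⟩ := exists_complement_in_subgroup K hcop _ (hstab x₀)
    obtain ⟨g, hg⟩ := conj_card K hcop hsolv H H₁ hH hcard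
    refine ⟨g⁻¹ • x₀, fun h hh => ?_⟩
    have := hH₁ (hg h hh)
    rw [MulAction.mem_stabilizer_iff, mul_smul, mul_smul] at this
    exact (eq_inv_smul_iff.2 this)
  · intro x y hx hy
    obtain ⟨k, hk⟩ := MulAction.exists_smul_eq K x y
    have hk' : (k : G) • x = y := hk
    -- H and k H k⁻¹ lie in the stabilizer of y
    have hHy : H ≤ MulAction.stabilizer G y := fun h hh => hy h hh
    have hcardk : Nat.card (MulAut.conj (k : G) • H : Subgroup G) = K.index := by
      rw [← hH]
      exact (Nat.card_congr (Subgroup.equivSMul (MulAut.conj (k : G)) H).toEquiv).symm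
    have hkHy : MulAut.conj (k : G) • H ≤ MulAction.stabilizer G y := by
      intro z hz
      obtain ⟨h, hh, rfl⟩ := Subgroup.mem_smul_pointwise_iff_exists _ _ _ |>.1 hz
      rw [MulAction.mem_stabilizer_iff, MulAut.smul_def, MulAut.conj_apply, mul_smul, mul_smul, ← hk',
        inv_smul_smul, hx h hh]
    obtain ⟨l, hl, hlH⟩ := conj_in_subgroup K hcop hsolv _ (hstab y) _ H hkHy hHy hcardk hH
    -- write l = n * h with n ∈ K, h ∈ H
    obtain ⟨⟨h, n⟩, hnh⟩ := hc.symm.2 l
    have hnh' : (h : G) * n = l := hnh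
    have hn_stab : (n : G) • y = y := by
      have h1 : (n : G) = (h : G)⁻¹ * l := by rw [← hnh']; group
      rw [h1, mul_smul, hl, inv_smul_eq_iff, hy h h.2]
    refine ⟨n * k, ?_, by rw [mul_smul, hk', hn_stab]⟩
    have hnorm : ∀ z ∈ H, ((n : G) * k) * z * ((n : G) * k)⁻¹ ∈ H := by
      intro z hz
      have h1 := hlH _ (Subgroup.smul_mem_pointwise_smul z (MulAut.conj (k : G)) H hz)
      rw [MulAut.smul_def, MulAut.conj_apply, ← hnh'] at h1
      have h2 : ((n : G) * k) * z * ((n : G) * k)⁻¹ =
          (h : G)⁻¹ * ((h : G) * n * ((k : G) * z * (k : G)⁻¹) * ((h : G) * n)⁻¹) * h := by group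
      rw [h2]
      exact H.mul_mem (H.mul_mem (H.inv_mem h.2) h1) h.2
    refine mem_inf.2 ⟨K.mul_mem n.2 k.2, ?_⟩
    rw [mem_centralizer_iff]
    intro z hz
    have hcK : (n : G) * k ∈ K := K.mul_mem n.2 k.2
    have h3 : ((n : G) * k) * z * ((n : G) * k)⁻¹ * z⁻¹ ∈ K ⊓ H := by
      refine mem_inf.2 ⟨?_, H.mul_mem (hnorm z hz) (H.inv_mem hz)⟩
      have : ((n : G) * k) * z * ((n : G) * k)⁻¹ * z⁻¹ = ((n : G) * k) * (z * ((n : G) * k)⁻¹ * z⁻¹) := by group
      rw [this]
      exact K.mul_mem hcK (‹K.Normal›.conj_mem _ (K.inv_mem hcK) z)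
    rw [hc.disjoint.eq_bot, mem_bot] at h3
    have h4 : ((n : G) * k) * z = z * ((n : G) * k) := by
      have := mul_inv_eq_one.1 h3
      rw [mul_inv_eq_iff_eq_mul] at this
      exact this
    exact h4.symm


end S0059

end Cfsg.Agent.Lib.Helper52
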